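import Cfsg.Agent.Inv.Cent2
/-!
# Counting fixed points
-/
set_option autoImplicit false

namespace Cfsg.Agent.Inv
open Cfsg Cfsg.Agent.CGT Equiv Subgroup MulAction

universe u v
variable {G : Type u} [Group G] (Ω : Type v) [MulAction G Ω]

/-- the number of fixed points -/
noncomputable def fx (g : G) : ℕ := Nat.card (fixedBy Ω g)

theorem fx_conj {x y : G} (h : IsConj x y) : fx Ω x = fx Ω y := by
  obtain ⟨g, rfl⟩ := isConj_iff.1 h
  exact Nat.card_congr ((toPerm g).subtypeEquiv fun a => by simp [mul_smul])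

theorem fx_le [Finite Ω] (x : G) : fx Ω x ≤ Nat.card Ω := Finite.card_subtype_le _

theorem eq_one_of_fx [Finite Ω] [FaithfulSMul G Ω] {x : G} (h : fx Ω x = Nat.card Ω) : x = 1 := by
  have h1 : fixedBy Ω x = Set.univ := Set.eq_of_subset_of_ncard_le (Set.subset_univ _) (by
    rw [Set.ncard_univ, ← h]; rfl)
  exact FaithfulSMul.eq_of_smul_eq_smul (α := Ω) fun a => by
    rw [one_smul]; exact (h1 ▸ Set.mem_univ a : a ∈ fixedBy Ω x)

theorem sum_fx [Finite G] [Finite Ω] (P : Subgroup G) [Fintype P] {u : G}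
    (h : ∀ x ∈ P, x ≠ 1 → IsConj x u) :
    ∑ g : P, fx Ω (g : G) = Nat.card Ω + (Nat.card P - 1) * fx Ω u := by
  classical
  rw [← Finset.add_sum_erase _ _ (Finset.mem_univ 1), Finset.sum_const_nat (m := fx Ω u) fun (g : P) hg =>
    fx_conj Ω (h g g.2 fun e => (Finset.mem_erase.1 hg).1 (Subtype.ext e)),
    Finset.card_erase_of_mem (Finset.mem_univ _), Finset.card_univ, Nat.card_eq_fintype_card (α := P)]
  simp [fx]

theorem dvd_fx [Finite G] [Finite Ω] (P : Subgroup G) {u : G} (h : ∀ x ∈ P, x ≠ 1 → IsConj x u) :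
    Nat.card P ∣ Nat.card Ω + (Nat.card P - 1) * fx Ω u := by
  classical
  have := Fintype.ofFinite P
  have := Fintype.ofFinite Ω
  rw [← sum_fx Ω P h, Nat.card_eq_fintype_card]
  refine Dvd.intro_left _ ((sum_card_fixedBy_eq_card_orbits_mul_card_group P Ω).symm.trans ?_)
  exact Finset.sum_congr rfl fun g _ => Nat.card_eq_fintype_card.symm

theorem fx_le_stab [Finite G] [Finite Ω] (P : Subgroup G) {u : G} (h : ∀ x ∈ P, x ≠ 1 → IsConj x u)
    {m : ℕ} (hm : ∀ a : Ω, Nat.card (stabilizer P a) ≤ m) :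
    Nat.card Ω + (Nat.card P - 1) * fx Ω u ≤ Nat.card Ω * m := by
  classical
  have := Fintype.ofFinite P
  have := Fintype.ofFinite Ω
  rw [← sum_fx Ω P h, Nat.card_eq_fintype_card, ← Finset.card_univ, ← smul_eq_mul]
  refine le_trans (le_of_eq ?_) (Finset.sum_le_card_nsmul _ _ _ fun a _ => hm a)
  simp only [fx, ← Nat.card_sigma]
  exact Nat.card_congr ⟨fun p => ⟨p.2.1, p.1, p.2.2⟩, fun p => ⟨p.2.1, p.1, p.2.2⟩, fun _ => rfl, fun _ => rfl⟩

theorem fx_modEq [Finite Ω] {p : ℕ} [Fact p.Prime] {x : G} (hx : x ^ p = 1) :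
    Nat.card Ω ≡ fx Ω x [MOD p] := by
  classical
  have := Fintype.ofFinite Ω
  have h := Equiv.Perm.card_fixedPoints_modEq (p := p) (n := 1) (f := (MulAction.toEndHom x : Function.End Ω)) (by
    rw [pow_one, ← map_pow, hx, map_one])
  rw [← Nat.card_eq_fintype_card, ← Nat.card_eq_fintype_card] at h
  exact h

/-- the listed elements are trivial or conjugate to `u` -/
noncomputable def clsB (k : ℕ) (ts : List Tab) (B u : List ℕ) (P : List (List ℕ × List ℕ)) : Bool :=
  ptsOK k B && allL P fun p => Nat.beq p.1.length 0 || eqB k ts B (app p.2 p.1) (app u p.2)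

theorem cls_of_list [Finite G] {φ : G →* Perm ℕ} {γ : ℕ → G} {k : ℕ} {ns : List Net} {ts : List Tab}
    (M : Model φ γ k ns ts) {B : List ℕ} (hB : IsBase φ ⊤ B) {L : List ℕ} {E : List (List ℕ)}
    (hE : ∀ x ∈ gp γ L, ∃ e ∈ E, ev (ext γ) e = x) {ls : List Level}
    (hs : ChainSound φ (gp γ L) k [] ls) {n : ℕ} {u : List ℕ} {P : List (List ℕ × List ℕ)}
    (hP : P.map Prod.fst = E) (h1 : E.length = n) (h2 : chainCard ls = n) (h : clsB k ts B u P = true) :
    Nat.card (gp γ L) = n ∧ ∀ x ∈ gp γ L, x ≠ 1 → IsConj x (ev (ext γ) u) := by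
  rw [clsB, Bool.and_eq_true] at h
  have h4 := hs.le_card
  rw [St_nil] at h4
  refine ⟨le_antisymm (h1 ▸ card_le_of_list hE) (h2 ▸ h4), fun x hx hx1 => ?_⟩
  obtain ⟨e, he, rfl⟩ := hE _ hx
  obtain ⟨p, hp, rfl⟩ := List.mem_map.1 (hP ▸ he)
  have h6 := allL_iff.1 h.2 p hp
  simp only [Bool.or_eq_true, Nat.beq_eq] at h6
  rcases h6 with h6 | h6
  · exact absurd (by rw [List.length_eq_zero_iff.1 h6]; rfl) hx1
  · have h7 := eqB_sound M hB h.1 trivial trivial h6
    rw [ev_app, ev_app] at h7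
    exact isConj_iff.2 ⟨_, mul_inv_eq_iff_eq_mul.2 h7⟩

theorem dvd_of_two [Finite Ω] (h : IsMultiplyPretransitive G Ω 2) (hΩ : 2 ≤ Nat.card Ω) :
    Nat.card Ω * (Nat.card Ω - 1) ∣ Nat.card G := by
  obtain ⟨s, -, hs⟩ := Set.exists_subset_card_eq (s := (Set.univ : Set Ω)) (n := 2) (by
    rwa [Set.ncard_univ])
  have h1 := IsMultiplyPretransitive.index_of_fixingSubgroup_eq s (hs ▸ h)
  rw [hs, Nat.choose_two_right, Nat.factorial_two, Nat.div_mul_cancel (Nat.even_mul_pred_self _).two_dvd] at h1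
  exact h1 ▸ index_dvd_card _

theorem not_two_tits [Finite G] [Finite Ω] [FaithfulSMul G Ω] (hG : Nat.card G = 17971200)
    {P Q : Subgroup G} {u v x y : G} (hP : Nat.card P = 27 ∧ ∀ g ∈ P, g ≠ 1 → IsConj g u)
    (hQ : Nat.card Q = 25 ∧ ∀ g ∈ Q, g ≠ 1 → IsConj g v) (hx : x ^ 13 = 1) (hx1 : x ≠ 1) (hy : y ∈ P)
    (hy1 : y ≠ 1) (hy3 : y ^ 3 = 1) (hxy : x * y = y * x ^ 3) (hΩ : 3 ≤ Nat.card Ω) :
    ¬ IsMultiplyPretransitive G Ω 2 := fun h => by
  have h1 := dvd_of_two Ω h (by omega)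
  have h2 := dvd_fx Ω P hP.2
  have h3 := dvd_fx Ω Q hQ.2
  have h4 := fx_le Ω u
  have h5 : fx Ω u ≠ Nat.card Ω := fun e => hy1 (isConj_one_left.1 (eq_one_of_fx Ω e ▸ (hP.2 y hy hy1)))
  rw [hG] at h1
  rw [hP.1] at h2
  rw [hQ.1] at h3
  have h6 : Nat.card Ω < 4241 := by
    have := Nat.le_of_dvd (by norm_num) h1
    by_contra h7
    have := Nat.mul_le_mul (not_lt.1 h7) (show 4240 ≤ Nat.card Ω - 1 by omega)
    omega
  have h7 : ∀ n < 4241, 27 < n → n * (n - 1) ∣ 17971200 → n = 40 ∨ n = 65 := fun n hn h1 h2 => by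
    have := allLt_iff.1 (show (allLt 4241 fun n => decide (27 < n → n * (n - 1) ∣ 17971200 → n = 40 ∨ n = 65)) = true by
      decide +kernel) n hn
    exact of_decide_eq_true this h1 h2
  by_cases h8 : 27 < Nat.card Ω
  · have := isPretransitive_of_is_two_pretransitive (G := G) (α := Ω)
    have : Fact (Nat.Prime 5) := ⟨by norm_num⟩
    have h9 := fx_le_stab Ω Q hQ.2 (m := 5) fun a => by
      obtain ⟨i, hi, e⟩ := (Nat.dvd_prime_pow this.out (m := 2)).1 (hQ.1 ▸ card_subgroup_dvd_card (stabilizer Q a))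
      interval_cases i
      · omega
      · omega
      · have h10 : Q ≤ stabilizer G a := fun g hg => by
          have := (eq_top_of_card_eq _ (e.trans hQ.1.symm)) ▸ mem_top (⟨g, hg⟩ : Q)
          exact this
        have h11 := card_dvd_of_le h10
        have h12 := (stabilizer G a).card_mul_index
        rw [index_stabilizer_of_transitive, hG] at h12
        rw [hQ.1] at h11
        rcases h7 _ h6 h8 h1 with h13 | h13 <;> rw [h13] at h12 <;> omega
    have := h7 _ h6 h8 h1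
    rw [hQ.1] at h9
    omega
  · have : Fact (Nat.Prime 13) := ⟨by norm_num⟩
    have : Fact (Nat.Prime 3) := ⟨by norm_num⟩
    have h9 := fx_modEq Ω hx
    have h10 := fx_le Ω x
    have h11 : fx Ω x ≠ Nat.card Ω := fun e => hx1 (eq_one_of_fx Ω e)
    have h12 : fx Ω y = 0 := by rw [fx_conj Ω (hP.2 y hy hy1)]; omega
    let S : SubMulAction (zpowers y) Ω := ⟨fixedBy Ω x, fun ⟨g, hg⟩ a ha => by
      obtain ⟨i, rfl⟩ := (mem_powers_iff_mem_zpowers.2 hg)
      change x • y ^ i • a = y ^ i • a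
      induction i with
      | zero => simpa using ha
      | succ i ih =>
        have := ih (mem_powers_iff_mem_zpowers.1 ⟨i, rfl⟩)
        rw [pow_succ', mul_smul, smul_smul, hxy, mul_smul, pow_three, mul_smul, mul_smul, this, this, this]⟩
    have h13 := fx_modEq S (p := 3) (x := ⟨y, mem_zpowers y⟩) (Subtype.ext hy3)
    have h14 : fx S (⟨y, mem_zpowers y⟩ : zpowers y) ≤ fx Ω y := Nat.card_le_card_of_injective
      (fun a => ⟨a.1.1, congrArg Subtype.val a.2⟩) fun a b e => Subtype.ext (Subtype.ext (Subtype.mk.inj e))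
    change fx Ω x ≡ _ [MOD 3] at h13
    unfold Nat.ModEq at h9 h13
    omega

end Cfsg.Agent.Inv
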